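import Cfsg.Agent.Lib.Char.ClassProd

/-!
# Frobenius' formula for a conjugation invariant set
-/

set_option autoImplicit false
set_option linter.unusedSectionVars false

namespace Cfsg.Agent.Lib.TwoGen.FrobSet

open Cfsg Module
open Cfsg.Agent.Lib.Char.Basic Cfsg.Agent.Lib.Char.Ortho Cfsg.Agent.Lib.Char.Complete
open Cfsg.Agent.Lib.Char.Degree Cfsg.Agent.Lib.Char.ClassSum
open scoped ComplexConjugate

universe u

variable {G : Type u} [Group G] [Fintype G] [DecidableEq G]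

/-- The indicator function of a set. -/
def ind (S : Finset G) : G → ℂ := fun g => if g ∈ S then 1 else 0

theorem isClassFunction_ind {S : Finset G} (hS : ∀ g ∈ S, ∀ h : G, h * g * h⁻¹ ∈ S) :
    IsClassFunction G (ind S) := by
  intro g h
  simp only [ind]
  by_cases hg : g ∈ S
  · rw [if_pos hg, if_pos (hS g hg h)]
  · have : h * g * h⁻¹ ∉ S := by
      intro h1
      apply hg
      have := hS _ h1 h⁻¹
      simpa [mul_assoc] using this
    rw [if_neg hg, if_neg this]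

theorem classInner_ind (S : Finset G) (χ : G → ℂ) :
    classInner (ind S) χ = (Nat.card G : ℂ)⁻¹ * conj (∑ g ∈ S, χ g) := by
  rw [classInner_def, map_sum]
  congr 1
  rw [← Finset.sum_filter_add_sum_filter_not Finset.univ (fun g => g ∈ S)]
  have h1 : Finset.univ.filter (fun g => g ∈ S) = S := by
    ext g
    simp
  have h2 : ∑ x ∈ Finset.univ.filter (fun g => g ∉ S), ind S x * conj (χ x) = 0 := by
    apply Finset.sum_eq_zero
    intro x hx
    simp only [ind, if_neg (Finset.mem_filter.mp hx).2, zero_mul]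
  rw [h1, h2, add_zero]
  apply Finset.sum_congr rfl
  intro x hx
  simp [ind, hx]

/-- Convolution of an irreducible character with a conjugation invariant set. -/
theorem sum_irr_mul {S : Finset G} (hS : ∀ g ∈ S, ∀ h : G, h * g * h⁻¹ ∈ S) {χ : G → ℂ}
    (hχ : IsIrrCharacter G χ) (a : G) :
    ∑ y ∈ S, χ (a * y) = χ a * (∑ g ∈ S, χ g) / χ 1 := by
  have hn : (Nat.card G : ℂ) ≠ 0 := card_ne_zero_complex
  have h1 : ∀ x : G, ∑ y ∈ S, χ (a * (x * y * x⁻¹)) = ∑ y ∈ S, χ (a * y) := by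
    intro x
    apply Finset.sum_nbij' (fun y => x * y * x⁻¹) (fun y => x⁻¹ * y * x)
    · intro y hy
      exact hS y hy x
    · intro y hy
      have := hS y hy x⁻¹
      simpa using this
    · intro y _
      group
    · intro y _
      group
    · intro y _
      rfl
  have h2 : ∑ x : G, ∑ y ∈ S, χ (a * (x * y * x⁻¹)) = (Nat.card G : ℂ) * ∑ y ∈ S, χ (a * y) := by
    simp_rw [h1]
    rw [Finset.sum_const, Finset.card_univ, nsmul_eq_mul, Nat.card_eq_fintype_card]
  have h3 : ∑ x : G, ∑ y ∈ S, χ (a * (x * y * x⁻¹)) =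
      (Nat.card G : ℂ) * (χ a * (∑ g ∈ S, χ g) / χ 1) := by
    rw [Finset.sum_comm]
    simp_rw [sum_irr_mul_conj' hχ]
    rw [Finset.mul_sum, Finset.sum_div, Finset.mul_sum]
    apply Finset.sum_congr rfl
    intro y _
    ring
  have h4 := h2.symm.trans h3
  exact mul_left_cancel₀ hn h4

variable [Fintype (IrrCharacter G)]

/-- **Frobenius' formula for sets.** -/
theorem card_filter_mul_mem {S : Finset G} (hS : ∀ g ∈ S, ∀ h : G, h * g * h⁻¹ ∈ S) (a : G) :
    ((S.filter (fun y => a * y ∈ S)).card : ℂ) =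
      (Nat.card G : ℂ)⁻¹ * ∑ χ : IrrCharacter G,
        conj (∑ g ∈ S, (χ : G → ℂ) g) * (∑ g ∈ S, (χ : G → ℂ) g) * (χ : G → ℂ) a / (χ : G → ℂ) 1 := by
  have hexp := classFunction_eq_sum (isClassFunction_ind hS)
  have h1 : ((S.filter (fun y => a * y ∈ S)).card : ℂ) = ∑ y ∈ S, ind S (a * y) := by
    simp only [ind]
    rw [Finset.sum_boole]
  rw [h1]
  have h2 : ∀ y : G, ind S (a * y) =
      ∑ χ : IrrCharacter G, classInner (ind S) (χ : G → ℂ) * (χ : G → ℂ) (a * y) := by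
    intro y
    conv_lhs => rw [hexp]
    simp only [Finset.sum_apply, Pi.smul_apply, smul_eq_mul]
  simp_rw [h2]
  rw [Finset.sum_comm, Finset.mul_sum]
  apply Finset.sum_congr rfl
  intro χ _
  rw [← Finset.mul_sum, sum_irr_mul hS χ.2, classInner_ind]
  ring

/-- **Parseval for sets.** -/
theorem card_mul_card_eq {S : Finset G} (hS : ∀ g ∈ S, ∀ h : G, h * g * h⁻¹ ∈ S) :
    (Nat.card G : ℂ) * (S.card : ℂ) =
      ∑ χ : IrrCharacter G, conj (∑ g ∈ S, (χ : G → ℂ) g) * (∑ g ∈ S, (χ : G → ℂ) g) := by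
  have hn : (Nat.card G : ℂ) ≠ 0 := card_ne_zero_complex
  have h1 := classInner_eq_sum (φ := ind S) (isClassFunction_ind hS)
  have h2 : classInner (ind S) (ind S) = (Nat.card G : ℂ)⁻¹ * (S.card : ℂ) := by
    rw [classInner_ind]
    congr 1
    simp only [ind, map_sum]
    simp
  rw [h2] at h1
  simp_rw [classInner_ind] at h1
  have h3 : ∀ χ : IrrCharacter G, (Nat.card G : ℂ)⁻¹ * conj (∑ g ∈ S, (χ : G → ℂ) g) *
      conj ((Nat.card G : ℂ)⁻¹ * conj (∑ g ∈ S, (χ : G → ℂ) g)) =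
      (Nat.card G : ℂ)⁻¹ * (Nat.card G : ℂ)⁻¹ *
        (conj (∑ g ∈ S, (χ : G → ℂ) g) * (∑ g ∈ S, (χ : G → ℂ) g)) := by
    intro χ
    simp only [map_mul, map_inv₀, map_natCast, Complex.conj_conj]
    ring
  simp_rw [h3] at h1
  rw [← Finset.mul_sum] at h1
  field_simp at h1
  rw [h1]

end Cfsg.Agent.Lib.TwoGen.FrobSet

namespace Cfsg.Agent.Lib.TwoGen.FrobSet

/-- **The final inequality.** -/
theorem numeric {ι : Type*} [Fintype ι] [DecidableEq ι] (o : ι) (c x : ι → ℝ) (p m : ℝ)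
    (hp : 5 ≤ p) (hm : 2 * p ≤ m) (hxpos : ∀ i, 0 < x i) (hco : c o = p - 1) (hxo : x o = 1)
    (h2 : ∑ i, c i ^ 2 = m * (p - 1))
    (h3 : ∑ i, c i ^ 3 / x i = m * (p - 1) * (p - 2))
    (hb : ∀ i, i ≠ o → c i ≤ (p - 1) * x i - m) : False := by
  have hmem : o ∈ (Finset.univ : Finset ι) := Finset.mem_univ o
  have e2 : ∑ i ∈ Finset.univ.erase o, c i ^ 2 = m * (p - 1) - (p - 1) ^ 2 := by
    rw [← h2, ← Finset.add_sum_erase _ _ hmem, hco]
    ring
  have e3 : ∑ i ∈ Finset.univ.erase o, c i ^ 3 / x i = m * (p - 1) * (p - 2) - (p - 1) ^ 3 := by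
    rw [← h3, ← Finset.add_sum_erase _ _ hmem, hco, hxo]
    ring
  have hp1 : 0 < p - 1 := by linarith
  have hle : ∀ i ∈ Finset.univ.erase o, c i ^ 3 / x i ≤ (p - 1) / 2 * c i ^ 2 := by
    intro i hi
    have hne : i ≠ o := Finset.ne_of_mem_erase hi
    have hx := hxpos i
    have hclaim : 2 * c i ≤ (p - 1) * x i := by
      by_contra hcon
      push Not at hcon
      have h4 := hb i hne
      have h5 : 2 * m < (p - 1) * x i := by linarith
      have h6 : m < c i := by linarith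
      have hm0 : 0 < m := by linarith
      have h7 : c i ^ 2 ≤ m * (p - 1) - (p - 1) ^ 2 := by
        rw [← e2]
        exact Finset.single_le_sum (f := fun i => c i ^ 2) (fun j _ => sq_nonneg _) hi
      have h8 : m ^ 2 < c i ^ 2 := by nlinarith
      nlinarith
    rw [div_le_iff₀ hx]
    have h9 : 0 ≤ c i ^ 2 := sq_nonneg _
    nlinarith
  have hsum := Finset.sum_le_sum hle
  rw [e3, ← Finset.mul_sum, e2] at hsum
  -- `m (p - 3) ≤ (p - 1) ^ 2`
  have h10 : m * (p - 2) - (p - 1) ^ 2 ≤ (p - 1) / 2 * (m - (p - 1)) := by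
    have e : m * (p - 1) * (p - 2) - (p - 1) ^ 3 = (p - 1) * (m * (p - 2) - (p - 1) ^ 2) := by ring
    have e' : (p - 1) / 2 * (m * (p - 1) - (p - 1) ^ 2) = (p - 1) * ((p - 1) / 2 * (m - (p - 1))) := by
      ring
    rw [e, e'] at hsum
    exact le_of_mul_le_mul_left hsum hp1
  nlinarith

end Cfsg.Agent.Lib.TwoGen.FrobSet
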